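import Mathlib
import Cfsg.Agent.Lib.Helper32.Scn.Tools

set_option autoImplicit false

/-!
S1904 package (A0a): in case (α) every `A`-invariant normal abelian subgroup is central and
fixed pointwise by `A`.
-/

namespace Cfsg.Agent.Lib.Helper11.Scn

open Cfsg.Agent.Lib.Helper32.Scn

universe u

/-- A nontrivial normal subgroup of a finite `p`-group meets the centre nontrivially. -/
theorem normal_inf_center_ne_bot {X : Type u} [Group X] [Finite X] {p : ℕ} [Fact p.Prime]
    (hX : IsPGroup p X) (N : Subgroup X) [hN : N.Normal] (hN1 : N ≠ ⊥) :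
    ∃ y ∈ N, y ∈ Subgroup.center X ∧ y ≠ 1 := by
  have hC : IsPGroup p (ConjAct X) := hX
  have hpN : p ∣ Nat.card N := by
    have hNp : IsPGroup p N := hX.to_subgroup N
    obtain ⟨n, hn⟩ := IsPGroup.iff_card.mp hNp
    have hn0 : n ≠ 0 := by
      rintro rfl
      rw [pow_zero] at hn
      exact hN1 ((Subgroup.card_eq_one).mp hn)
    rw [hn]
    exact dvd_pow_self p hn0
  obtain ⟨b, hb, hne⟩ :=
    hC.exists_fixed_point_of_prime_dvd_card_of_fixed_point (α := N) hpN (a := 1)
      (by intro g; simp)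
  refine ⟨b, b.2, ?_, ?_⟩
  · rw [Subgroup.mem_center_iff]
    intro g
    have h1 := hb (ConjAct.toConjAct g)
    have h2 : g * (b : X) * g⁻¹ = (b : X) := by
      have := congrArg Subtype.val h1
      rw [ConjAct.Subgroup.val_conj_smul, ConjAct.smul_def] at this
      simpa using this
    calc g * (b : X) = g * (b : X) * g⁻¹ * g := by group
      _ = (b : X) * g := by rw [h2]
  · intro h
    apply hne
    exact Subtype.ext h.symm

theorem aut_pow_fix {X : Type u} [Group X] (θ : MulAut X) (b : X) (hb : θ b = b) (n : ℕ) :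
    (θ ^ n) b = b := by
  induction n with
  | zero => simp
  | succ n ih => rw [pow_succ, MulAut.mul_apply, hb, ih]

theorem aut_fix_of_sq_fix {X : Type u} [Group X] (ψ : MulAut X) (hodd : Odd (orderOf ψ)) (b : X)
    (hb : ψ (ψ b) = b) : ψ b = b := by
  obtain ⟨k, hk⟩ := hodd
  have h2 : (ψ ^ 2) b = b := by rw [pow_two, MulAut.mul_apply]; exact hb
  have h3 := aut_pow_fix (ψ ^ 2) b h2 (k + 1)
  have h4 : (ψ ^ 2) ^ (k + 1) = ψ := by
    rw [← pow_mul, show 2 * (k + 1) = orderOf ψ + 1 by omega, pow_succ, pow_orderOf_eq_one,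
      one_mul]
  rw [h4] at h3
  exact h3

theorem lemA0a : LemA0a.{u} := by
  intro X _ _ A h hfix B hBn hBA hBab
  classical
  haveI : Fact (Nat.Prime 2) := ⟨Nat.prime_two⟩
  have hoddA : ∀ ψ ∈ A, Odd (orderOf ψ) := by
    intro ψ hψ
    have hd := orderOf_dvd_natCard (⟨ψ, hψ⟩ : A)
    rw [Subgroup.orderOf_mk] at hd
    exact h.odd.of_dvd_nat hd
  -- Ω
  let Ω : Subgroup X :=
    { carrier := {b | b ∈ B ∧ b * b = 1}
      one_mem' := ⟨B.one_mem, by simp⟩
      mul_mem' := by
        rintro a b ⟨ha, ha2⟩ ⟨hb, hb2⟩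
        refine ⟨B.mul_mem ha hb, ?_⟩
        calc a * b * (a * b) = a * (b * a) * b := by group
          _ = a * (a * b) * b := by rw [hBab a ha b hb]
          _ = (a * a) * (b * b) := by group
          _ = 1 := by rw [ha2, hb2, one_mul]
      inv_mem' := by
        rintro a ⟨ha, ha2⟩
        refine ⟨B.inv_mem ha, ?_⟩
        calc a⁻¹ * a⁻¹ = (a * a)⁻¹ := by group
          _ = 1 := by rw [ha2, inv_one] }
  have hΩn : Ω.Normal := by
    constructor
    intro b hb g
    refine ⟨hBn.conj_mem b hb.1 g, ?_⟩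
    calc g * b * g⁻¹ * (g * b * g⁻¹) = g * (b * b) * g⁻¹ := by group
      _ = 1 := by rw [hb.2]; group
  have hΩcard : Nat.card Ω ≤ 4 := h.noE8 Ω hΩn (fun e he => he.2)
  have hΩA : ∀ ψ ∈ A, ∀ b ∈ Ω, ψ b ∈ Ω := by
    intro ψ hψ b hb
    refine ⟨hBA ψ hψ b hb.1, ?_⟩
    rw [← map_mul, hb.2, map_one]
  have hcardS : ∀ S : Finset X, (∀ x ∈ S, x ∈ Ω) → S.card ≤ Nat.card Ω := by
    intro S hS
    have e : Nat.card Ω = (Ω : Set X).ncard := Nat.card_coe_set_eq (Ω : Set X)
    rw [e, ← Set.ncard_coe_finset S]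
    exact Set.ncard_le_ncard (fun x hx => hS x (by simpa using hx)) (Set.toFinite _)
  -- (i)
  have hi : ∀ ψ ∈ A, ∀ b ∈ Ω, ψ b = b := by
    intro ψ hψ b hb
    by_contra hne
    have hΩ1 : Ω ≠ ⊥ := by
      intro hbot
      have hb' : b ∈ (⊥ : Subgroup X) := hbot ▸ hb
      rw [Subgroup.mem_bot] at hb'
      apply hne
      rw [hb', map_one]
    obtain ⟨z, hzΩ, hzZ, hz1⟩ := normal_inf_center_ne_bot h.two Ω hΩ1
    have hzV : z ∈ omZ X := ⟨hzZ, hzΩ.2⟩
    have hψz : ψ z = z := hfix ψ hψ z hzV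
    have hb1 : b ≠ 1 := by
      rintro rfl
      exact hne (map_one ψ)
    have hbz : b ≠ z := by
      rintro rfl
      exact hne hψz
    have hψb : ψ b ∈ Ω := hΩA ψ hψ b hb
    have hψb1 : ψ b ≠ 1 := by
      intro hc
      apply hb1
      have : ψ b = ψ 1 := by rw [hc, map_one]
      exact ψ.injective this
    have hψbz : ψ b ≠ z := by
      intro hc
      apply hbz
      apply ψ.injective
      rw [hc, hψz]
    have hzb : z * b ∈ Ω := Ω.mul_mem hzΩ hb
    have hzb1 : z * b ≠ 1 := by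
      intro hc
      apply hbz
      have : b = z⁻¹ := eq_inv_of_mul_eq_one_right hc
      rw [this, omZ_inv hzV]
    have hzbz : z * b ≠ z := by
      intro hc
      apply hb1
      have : z * b = z * 1 := by rw [hc, mul_one]
      exact mul_left_cancel this
    have hzbb : z * b ≠ b := by
      intro hc
      apply hz1
      have : z * b = 1 * b := by rw [hc, one_mul]
      exact mul_right_cancel this
    have key : ψ b = z * b := by
      by_contra hcontra
      have h5 : ({1, z, b, ψ b, z * b} : Finset X).card = 5 := by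
        rw [Finset.card_insert_of_notMem, Finset.card_insert_of_notMem,
          Finset.card_insert_of_notMem, Finset.card_insert_of_notMem, Finset.card_singleton]
        · simp only [Finset.mem_singleton]
          exact hcontra
        · simp only [Finset.mem_insert, Finset.mem_singleton, not_or]
          exact ⟨fun hc => hne hc.symm, fun hc => hzbb hc.symm⟩
        · simp only [Finset.mem_insert, Finset.mem_singleton, not_or]
          exact ⟨fun hc => hbz hc.symm, fun hc => hψbz hc.symm, fun hc => hzbz hc.symm⟩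
        · simp only [Finset.mem_insert, Finset.mem_singleton, not_or]
          exact ⟨fun hc => hz1 hc.symm, fun hc => hb1 hc.symm, fun hc => hψb1 hc.symm,
            fun hc => hzb1 hc.symm⟩
      have hle := hcardS ({1, z, b, ψ b, z * b} : Finset X) (by
        intro x hx
        simp only [Finset.mem_insert, Finset.mem_singleton] at hx
        rcases hx with rfl | rfl | rfl | rfl | rfl
        · exact Ω.one_mem
        · exact hzΩ
        · exact hb
        · exact hψb
        · exact hzb)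
      rw [h5] at hle
      omega
    apply hne
    apply aut_fix_of_sq_fix ψ (hoddA ψ hψ) b
    rw [key, map_mul, hψz, key, ← mul_assoc, hzΩ.2, one_mul]
  -- (ii)
  have hii : ∀ k : ℕ, ∀ ψ ∈ A, ∀ b ∈ B, b ^ (2 ^ k) = 1 → ψ b = b := by
    intro k
    induction k with
    | zero =>
      intro ψ hψ b hb hbk
      rw [pow_zero, pow_one] at hbk
      rw [hbk, map_one]
    | succ k ih =>
      intro ψ hψ b hb hbk
      have hb2 : ψ (b * b) = b * b := by
        apply ih ψ hψ (b * b) (B.mul_mem hb hb)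
        rw [← pow_two, ← pow_mul, ← pow_succ']
        exact hbk
      have hψbB : ψ b ∈ B := hBA ψ hψ b hb
      have hdB : b⁻¹ * ψ b ∈ B := B.mul_mem (B.inv_mem hb) hψbB
      have hdd : (b⁻¹ * ψ b) * (b⁻¹ * ψ b) = 1 := by
        have hc : ψ b * b⁻¹ = b⁻¹ * ψ b := hBab _ hψbB _ (B.inv_mem hb)
        calc (b⁻¹ * ψ b) * (b⁻¹ * ψ b) = b⁻¹ * (ψ b * b⁻¹) * ψ b := by group
          _ = b⁻¹ * (b⁻¹ * ψ b) * ψ b := by rw [hc]
          _ = (b * b)⁻¹ * (ψ b * ψ b) := by group
          _ = (b * b)⁻¹ * ψ (b * b) := by rw [map_mul]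
          _ = 1 := by rw [hb2]; group
      have hdΩ : b⁻¹ * ψ b ∈ Ω := ⟨hdB, hdd⟩
      have hψd : ψ (b⁻¹ * ψ b) = b⁻¹ * ψ b := hi ψ hψ _ hdΩ
      have hψb : ψ b = b * (b⁻¹ * ψ b) := by group
      have hpow : ∀ i : ℕ, (ψ ^ i) b = b * (b⁻¹ * ψ b) ^ i := by
        intro i
        induction i with
        | zero => simp
        | succ i ih2 =>
          rw [pow_succ, MulAut.mul_apply]
          conv_lhs => rw [hψb]
          rw [map_mul, ih2, aut_pow_fix ψ _ hψd i, pow_succ, mul_assoc]
      obtain ⟨j, hj⟩ := hoddA ψ hψ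
      have h1 := hpow (orderOf ψ)
      rw [pow_orderOf_eq_one, MulAut.one_apply] at h1
      have hdi : (b⁻¹ * ψ b) ^ (orderOf ψ) = 1 := by
        have : b * 1 = b * (b⁻¹ * ψ b) ^ orderOf ψ := by rw [mul_one]; exact h1
        exact (mul_left_cancel this).symm
      have hd1 : b⁻¹ * ψ b = 1 := by
        rw [hj, pow_succ, pow_mul, pow_two, hdd, one_pow, one_mul] at hdi
        exact hdi
      rw [hψb, hd1, mul_one]
  have hfixB : ∀ ψ ∈ A, ∀ b ∈ B, ψ b = b := by
    intro ψ hψ b hb
    obtain ⟨k, hk⟩ := h.two b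
    exact hii k ψ hψ b hb hk
  refine ⟨?_, hfixB⟩
  intro b hb
  rw [Subgroup.mem_center_iff]
  have hall := h.top_of_mem (Subgroup.centralizer ({b} : Set X)) (by
    intro ψ hψ x
    rw [Subgroup.mem_centralizer_iff]
    intro y hy
    rw [Set.mem_singleton_iff] at hy
    subst hy
    have h1 : ψ (x * y * x⁻¹) = x * y * x⁻¹ := hfixB ψ hψ _ (hBn.conj_mem y hb x)
    rw [map_mul, map_mul, map_inv, hfixB ψ hψ y hb] at h1
    calc y * (x⁻¹ * ψ x) = x⁻¹ * (x * y * x⁻¹) * ψ x := by group
      _ = x⁻¹ * (ψ x * y * (ψ x)⁻¹) * ψ x := by rw [h1]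
      _ = x⁻¹ * ψ x * y := by group)
  intro g
  have hg := hall g
  rw [Subgroup.mem_centralizer_iff] at hg
  exact (hg b rfl).symm

end Cfsg.Agent.Lib.Helper11.Scn
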