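import Mathlib
import Cfsg.Agent.Lib.Helper32.Scn.Tools

set_option autoImplicit false

/-!
S1904 package (FX): an `A`-fixed element `z` has `z ^ |A|` in the commutator subgroup.
-/

namespace Cfsg.Agent.Lib.Helper11.Scn

open Cfsg.Agent.Lib.Helper32.Scn

universe u

theorem lemFix : LemFix.{u} := by
  intro X _ _ A h z hz
  classical
  haveI : Fintype A := Fintype.ofFinite A
  let f : X →* Abelianization X :=
    ∏ ψ : A, (Abelianization.of.comp ((ψ : MulAut X).toMonoidHom))
  have hf : ∀ x : X, f x = ∏ ψ : A, Abelianization.of ((ψ : MulAut X) x) := by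
    intro x
    simp [f, MonoidHom.finset_prod_apply]
  have hinv : ∀ ψ' ∈ A, ∀ x : X, f (ψ' x) = f x := by
    intro ψ' hψ' x
    rw [hf, hf]
    exact Fintype.prod_equiv (Equiv.mulRight (⟨ψ', hψ'⟩ : A)) _ _ (fun ψ => rfl)
  have hker : ∀ x : X, x ∈ f.ker := by
    apply h.top_of_mem
    intro ψ hψ x
    rw [MonoidHom.mem_ker, map_mul, map_inv, hinv ψ hψ]
    simp
  have hz1 : f z = 1 := hker z
  rw [hf] at hz1
  have hc : ∀ ψ : A, Abelianization.of ((ψ : MulAut X) z) = Abelianization.of z :=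
    fun ψ => by rw [hz ψ ψ.2]
  simp only [hc, Finset.prod_const, Finset.card_univ] at hz1
  rw [← map_pow, ← Nat.card_eq_fintype_card] at hz1
  rw [← Abelianization.ker_of]
  exact hz1

end Cfsg.Agent.Lib.Helper11.Scn
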